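import Cfsg.Agent.H203.BdSL2
import Cfsg.Agent.H450.FratMod
import Cfsg.Agent.Schreier.Tools2
import Cfsg.Agent.TwoFusion.SLTwoFacts
import Cfsg.Agent.S1259

/-!
# `SL₂(q)` acting nontrivially on an `r`-group, `r` prime to `q` (helper446, S5719)

`cross` : `R` an `r`-subgroup normalised by the image of `SL₂(F)`, `|F| > 3` odd, `r ≠ 0` in `F`, `φ (-1)` not centralising
`R`: then `r ^ ((|F| - 1) / 2) ≤ |R|`.
-/

set_option autoImplicit false
set_option linter.style.haveILetI false

namespace Cfsg.Agent.H446.IFX

open Subgroup Cfsg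
open scoped commutatorElement

universe v

/-- automorphisms of `T` modulo the Frattini subgroup -/
noncomputable def fr (T : Type*) [Group T] : MulAut T →* MulAut (T ⧸ frattini T) where
  toFun g := QuotientGroup.congr (frattini T) (frattini T) g
    (Subgroup.characteristic_iff_map_eq.mp inferInstance _)
  map_one' := by
    ext x
    obtain ⟨x, rfl⟩ := QuotientGroup.mk_surjective x
    rfl
  map_mul' g h := by
    ext x
    obtain ⟨x, rfl⟩ := QuotientGroup.mk_surjective x
    rfl

theorem fr_mk {T : Type*} [Group T] (g : MulAut T) (x : T) : fr T g (x : T ⧸ frattini T) = ((g x : T) : T ⧸ frattini T) :=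
  rfl

theorem mem_of_fr {T : Type*} [Group T] {g : MulAut T} (h : fr T g = 1) (x : T) : g x * x⁻¹ ∈ frattini T := by
  have h1 : ((g x : T) : T ⧸ frattini T) = (x : T ⧸ frattini T) := by
    rw [← fr_mk, h]
    rfl
  rw [← QuotientGroup.eq_one_iff, QuotientGroup.mk_mul, QuotientGroup.mk_inv, h1, mul_inv_cancel]

/-- automorphisms of an elementary abelian group as matrices -/
theorem exists_rep {E : Type*} {K : Type v} [Group E] [CommGroup K] [Finite K] {p : ℕ} [Fact p.Prime]
    (hK : ∀ x : K, x ^ p = 1) (a : E →* MulAut K) :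
    ∃ (n : ℕ) (ρ : E →* Matrix.GeneralLinearGroup (Fin n) (ZMod p)), Nat.card K = p ^ n ∧ ρ.ker = a.ker := by
  classical
  obtain ⟨V, i1, i2, i3, γ, π, -, hγ⟩ := H450.FratMod.exists_lin (p := p) hK (MonoidHom.id (MulAut K))
  have hfd : Module.Finite (ZMod p) V := Module.Finite.of_finite
  let b := Module.finBasis (ZMod p) V
  let ρ : MulAut K →* Matrix.GeneralLinearGroup (Fin (Module.finrank (ZMod p) V)) (ZMod p) :=
    { toFun := fun x => ⟨LinearMap.toMatrix b b (γ x).toLinearMap, LinearMap.toMatrix b b (γ x⁻¹).toLinearMap, by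
          rw [← LinearMap.toMatrix_comp, map_inv]
          have : (γ x).toLinearMap ∘ₗ ((γ x)⁻¹).toLinearMap = LinearMap.id := by
            ext v
            exact (γ x).apply_symm_apply v
          rw [this, LinearMap.toMatrix_id], by
          rw [← LinearMap.toMatrix_comp, map_inv]
          have : ((γ x)⁻¹).toLinearMap ∘ₗ (γ x).toLinearMap = LinearMap.id := by
            ext v
            exact (γ x).symm_apply_apply v
          rw [this, LinearMap.toMatrix_id]⟩
      map_one' := by
        apply Units.ext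
        show LinearMap.toMatrix b b (γ 1).toLinearMap = 1
        rw [map_one]
        exact LinearMap.toMatrix_id b
      map_mul' := fun x y => by
        apply Units.ext
        show LinearMap.toMatrix b b (γ (x * y)).toLinearMap =
          LinearMap.toMatrix b b (γ x).toLinearMap * LinearMap.toMatrix b b (γ y).toLinearMap
        rw [← LinearMap.toMatrix_comp, map_mul]
        rfl }
  refine ⟨_, ρ.comp a, ?_, ?_⟩
  · have h1 : Nat.card V = Nat.card (ZMod p) ^ Module.finrank (ZMod p) V := Module.natCard_eq_pow_finrank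
    rw [Nat.card_zmod] at h1
    rw [← h1]
    exact Nat.card_congr π.toEquiv
  · ext x
    constructor
    · intro hx
      have h1 : LinearMap.toMatrix b b (γ (a x)).toLinearMap = 1 := congrArg Units.val (MonoidHom.mem_ker.1 hx)
      rw [← LinearMap.toMatrix_id b] at h1
      have h2 := (LinearMap.toMatrix b b).injective h1
      have h3 : a x ∈ γ.ker := by
        rw [MonoidHom.mem_ker]
        ext v
        exact LinearMap.congr_fun h2 v
      rw [hγ] at h3
      exact h3
    · intro hx
      rw [MonoidHom.mem_ker] at hx ⊢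
      rw [MonoidHom.comp_apply, hx, map_one]

/-- **Cross characteristic action of `SL₂(q)`.** -/
theorem cross {F : Type} [Field F] [Fintype F] {r : ℕ} (hr : r.Prime) (hodd : Odd (Fintype.card F))
    (h3 : 3 < Fintype.card F) (hrF : (r : F) ≠ 0) {G : Type v} [Group G] [Finite G]
    (φ : Matrix.SpecialLinearGroup (Fin 2) F →* G) {R : Subgroup G} (hR : IsPGroup r R)
    (hn : ∀ x, ∀ y ∈ R, φ x * y * (φ x)⁻¹ ∈ R) (hne : ∃ y ∈ R, φ (-1) * y ≠ y * φ (-1)) :
    r ^ ((Fintype.card F - 1) / 2) ≤ Nat.card R := by
  classical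
  have hrp : Fact r.Prime := ⟨hr⟩
  set S := Matrix.SpecialLinearGroup (Fin 2) F with hS
  have hperf : commutator S = ⊤ := TwoFusion.SLTwoFacts.commutator_eq_top h3
  have hq : IsQuasisimple S := ⟨Group.isPerfect_def.2 hperf, TwoFusion.SLTwoFacts.isSimpleGroup_psl h3⟩
  -- the action
  have hnorm : ∀ x : S, φ x ∈ normalizer (R : Set G) := by
    intro x
    rw [mem_normalizer_iff]
    intro y
    refine ⟨hn x y, fun h => ?_⟩
    have h1 := hn x⁻¹ _ h
    rw [map_inv, inv_inv] at h1
    have h2 : (φ x)⁻¹ * (φ x * y * (φ x)⁻¹) * φ x = y := by group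
    rwa [h2] at h1
  let α : S →* MulAut R := R.normalizerMonoidHom.comp (φ.codRestrict (normalizer (R : Set G)) hnorm)
  have hα : ∀ (x : S) (y : R), ((α x y : R) : G) = φ x * y * (φ x)⁻¹ := fun x y => rfl
  let β : S →* MulAut (R ⧸ frattini R) := (fr R).comp α
  have hβn : β.ker ≠ ⊤ := by
    intro htop
    have h1 : IsPGroup r α.range := by
      refine Cfsg.Agent.Schreier.Tools2.isPGroup_of_trivial_mod_frattini hR _ ?_
      rintro _ ⟨x, rfl⟩ y
      have h2 : x ∈ β.ker := by rw [htop]; exact mem_top _
      exact mem_of_fr (MonoidHom.mem_ker.1 h2) y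
    have h2 : Group.IsSolvable α.range := by
      have : Group.IsNilpotent α.range := h1.isNilpotent
      infer_instance
    have h3 : ∀ x : S, x ∈ α.ker := by
      have h4 : (α.rangeRestrict).ker = ⊤ := by
        have h5 : commutator α.range = ⊤ := by
          have h6 : (commutator S).map α.rangeRestrict = commutator α.range := by
            rw [commutator_def, commutator_def, Subgroup.map_commutator,
              ← MonoidHom.range_eq_map, MonoidHom.range_eq_top.2 α.rangeRestrict_surjective]
          rw [← h6, hperf, ← MonoidHom.range_eq_map, MonoidHom.range_eq_top.2 α.rangeRestrict_surjective]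
        have h6 : Subsingleton α.range := by
          by_contra hns
          have : Nontrivial α.range := not_subsingleton_iff_nontrivial.1 hns
          exact (Group.IsSolvable.commutator_lt_top_of_nontrivial α.range).ne h5
        rw [eq_top_iff]
        intro x _
        exact MonoidHom.mem_ker.2 (Subsingleton.elim _ _)
      intro x
      have h5 : x ∈ (α.rangeRestrict).ker := by rw [h4]; exact mem_top _
      rw [MonoidHom.ker_rangeRestrict] at h5
      exact h5
    obtain ⟨y, hy, hyne⟩ := hne
    apply hyne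
    have h4 : α (-1) = 1 := MonoidHom.mem_ker.1 (h3 (-1))
    have h5 := hα (-1) ⟨y, hy⟩
    rw [h4] at h5
    have h6 : y = φ (-1) * y * (φ (-1))⁻¹ := h5
    exact (eq_mul_inv_iff_mul_eq.1 h6).symm
  have hβc : β.ker ≤ center S := by
    refine (S1259.result hq β.ker ?_).resolve_left hβn
    exact Subgroup.Normal.isSubnormal inferInstance
  -- the module
  have hcomm : ∀ a b : R ⧸ frattini R, a * b = b * a := by
    intro a b
    obtain ⟨a, rfl⟩ := QuotientGroup.mk_surjective a
    obtain ⟨b, rfl⟩ := QuotientGroup.mk_surjective b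
    rw [← QuotientGroup.mk_mul, ← QuotientGroup.mk_mul, QuotientGroup.eq]
    have h := Lib.FrattiniPGroup.commutator_mem_frattini hR b⁻¹ a⁻¹
    have h2 : (a * b)⁻¹ * (b * a) = ⁅b⁻¹, a⁻¹⁆ := by
      rw [commutatorElement_def]; group
    rw [h2]; exact h
  let cg : CommGroup (R ⧸ frattini R) :=
    { (inferInstance : Group (R ⧸ frattini R)) with mul_comm := hcomm }
  have hpow : ∀ x : R ⧸ frattini R, x ^ r = 1 := by
    intro x
    obtain ⟨y, rfl⟩ := QuotientGroup.mk_surjective x
    rw [← QuotientGroup.mk_pow, QuotientGroup.eq_one_iff]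
    exact Lib.FrattiniPGroup.pow_mem_frattini hR y
  obtain ⟨n, ρ, hcardV, hρ⟩ := exists_rep (p := r) hpow β
  obtain ⟨p, hpC⟩ := CharP.exists F
  obtain ⟨m, hp, hm⟩ := FiniteField.card F p
  have hp2 : p ≠ 2 := by
    rintro rfl
    rw [hm] at hodd
    exact (Nat.not_even_iff_odd.2 hodd) (Nat.even_pow.2 ⟨even_two, m.pos.ne'⟩)
  have hpr : (p : ZMod r) ≠ 0 := by
    intro h
    have h1 : r ∣ p := (ZMod.natCast_eq_zero_iff p r).1 h
    rw [(Nat.prime_dvd_prime_iff_eq hr hp).1 h1] at hrF
    exact hrF (CharP.cast_eq_zero F p)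
  have hbd := H203.BdSL2.bd_of_sl2 (F := ZMod r) (K := F) (r := p) hp rfl hpr (T := β.range) β.rangeRestrict (by
    rw [MonoidHom.ker_rangeRestrict]
    exact hβc)
  have hle : (Fintype.card F - 1) / Nat.gcd 2 (Fintype.card F - 1) ≤ n := by
    refine hbd n ⟨S, inferInstance, β.rangeRestrict, ρ, β.rangeRestrict_surjective, ?_, ?_, ?_⟩
    · intro x hx y
      have h1 : x ∈ β.ker := by
        rw [← MonoidHom.ker_rangeRestrict]
        exact hx
      exact (mem_center_iff.1 (hβc h1) y).symm
    · rw [MonoidHom.ker_rangeRestrict]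
      have h1 : Nat.card β.ker ∣ Nat.card (center S) := card_dvd_of_le hβc
      have h2 : IsPGroup 2 (center S) := by
        intro x
        refine ⟨1, ?_⟩
        have hx := (Matrix.SpecialLinearGroup.mem_center_iff (A := (x : S))).1 x.2
        obtain ⟨c, hc, hcx⟩ := hx
        apply Subtype.ext
        apply Subtype.ext
        rw [pow_one, Subgroup.coe_pow, Subgroup.coe_one, Matrix.SpecialLinearGroup.coe_pow,
          Matrix.SpecialLinearGroup.coe_one, ← hcx, ← map_pow]
        rw [Fintype.card_fin] at hc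
        rw [hc, map_one]
      obtain ⟨k, hk⟩ := IsPGroup.iff_card.1 h2
      rw [hk] at h1
      exact Nat.Coprime.coprime_dvd_left h1 (Nat.Coprime.pow_left _ ((Nat.coprime_primes Nat.prime_two hp).2 hp2.symm))
    · rw [MonoidHom.ker_rangeRestrict]
      exact hρ.le
  have hg : Nat.gcd 2 (Fintype.card F - 1) = 2 := by
    obtain ⟨k, hk⟩ := hodd
    exact Nat.gcd_eq_left ⟨k, by omega⟩
  rw [hg] at hle
  calc r ^ ((Fintype.card F - 1) / 2) ≤ r ^ n := Nat.pow_le_pow_right hr.pos hle
    _ = Nat.card (R ⧸ frattini R) := hcardV.symm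
    _ ≤ Nat.card R := Nat.card_le_card_of_surjective _ (QuotientGroup.mk_surjective)

end Cfsg.Agent.H446.IFX
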